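import Mathlib
import Cfsg.Agent.H672.Over
import Cfsg.Agent.CharactersDeep.AbelianQuotient

/-!
# S4816, case A, layer (a): invariant characters over invariant characters (helper322)

`L₀ ≤ L` normal in `H`, `ψ₀` an `H`-invariant irreducible character of `L₀`.

* `exists_twist`: if `L / L₀` is abelian, the characters of `L` over `ψ₀` are twists of each other by linear
  characters of `L / L₀`;
* `inv_of_central`: `H` perfect, `L / L₀` central in `H / L₀`: every character of `L` over `ψ₀` is `H`-invariant;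
* `inv_of_unique`: if `ψ` is the only character over `ψ₀` then it is `H`-invariant;
* `chief_cases`: `L / L₀` an abelian chief factor: the character over `ψ₀` is unique and vanishes off `L₀` (fully ramified)
  or all characters over `ψ₀` are extensions;
* `layer_a`: the trichotomy;
* `unique_of_nondeg`: central `Z ≤ L`, `⁅L, L⁆ ≤ Z`, nondegenerate commutator form through the linear character `φ`.
-/

set_option autoImplicit false
set_option linter.style.haveILetI false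
set_option linter.unusedSectionVars false
open Cfsg

namespace Cfsg.Agent.H322.RIM

open Cfsg.Agent.Characters.Core Cfsg.Agent.Characters.Clifford Cfsg.Agent.H672
open Cfsg.Agent.CharactersDeep.AbelianQuotient Cfsg.Agent.CharactersDeep.CliffordSum
open scoped ComplexConjugate commutatorElement

universe u

section one

variable {G : Type u} [Group G] [Finite G] (N : Subgroup G) [hN : N.Normal]

/-- The restriction of a character over an invariant character. -/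
theorem res_eq {θ : N → ℂ} (hθ : IsIrrCharacter N θ) (hinv : inertia N θ = ⊤) {ψ : G → ℂ} (hψ : IsIrrCharacter G ψ)
    (h : Over N.subtype ψ θ) : ∃ e : ℕ, 0 < e ∧ ∀ n : N, ψ n = e * θ n := by
  classical
  letI := Fintype.ofFinite N
  letI := Fintype.ofFinite G
  have h' := (over_subtype_iff N ψ θ).1 h
  obtain ⟨e, he⟩ := classInner_isNat (isCharacter_comp N.subtype (isIrr_isCharacter hψ)) (isIrr_isCharacter hθ)
  have he' : classInner (fun n : N => ψ n) θ = e := he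
  have key := restrict_eq_smul_sum N hψ hθ h'
  have him : Finset.univ.image (fun x : G => θ ∘ (MulAut.conjNormal x : MulAut N)) = {θ} := by
    ext f
    rw [Finset.mem_image, Finset.mem_singleton]
    constructor
    · rintro ⟨x, -, rfl⟩
      have hx : x ∈ inertia N θ := by rw [hinv]; trivial
      exact hx
    · rintro rfl
      refine ⟨1, Finset.mem_univ _, ?_⟩
      rw [map_one]
      rfl
  rw [him, Finset.sum_singleton, he'] at key
  refine ⟨e, Nat.pos_of_ne_zero ?_, fun n => congrFun key n⟩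
  rintro rfl
  rw [he', Nat.cast_zero] at h'
  exact h' rfl

theorem sum_sub {G : Type*} [Group G] [Fintype G] (N : Subgroup G) [Fintype N] [DecidablePred (· ∈ N)] (f : G → ℂ)
    (h0 : ∀ g ∉ N, f g = 0) : ∑ g : G, f g = ∑ n : N, f n := by
  classical
  rw [← Finset.sum_filter_add_sum_filter_not Finset.univ (fun g => g ∈ N)]
  rw [Finset.sum_eq_zero (s := Finset.univ.filter (fun g => ¬ g ∈ N)), add_zero]
  · exact Finset.sum_subtype (p := fun g => g ∈ N) (Finset.univ.filter (fun g => g ∈ N)) (by simp) f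
  · intro g hg
    exact h0 g (by simpa using hg)

/-- Twists. -/
theorem exists_twist (hab : ∀ x y : G, x * y * x⁻¹ * y⁻¹ ∈ N) {θ : N → ℂ} (hθ : IsIrrCharacter N θ)
    (hinv : inertia N θ = ⊤) {ψ ψ' : G → ℂ} (hψ : IsIrrCharacter G ψ) (hψ' : IsIrrCharacter G ψ')
    (h : Over N.subtype ψ θ) (h' : Over N.subtype ψ' θ) :
    ∃ l : G →* ℂˣ, (∀ n ∈ N, l n = 1) ∧ ψ' = (fun g => (l g : ℂ)) * ψ := by
  classical
  letI := Fintype.ofFinite N
  letI := Fintype.ofFinite G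
  obtain ⟨e, he0, he⟩ := res_eq N hθ hinv hψ h
  obtain ⟨e', he0', he'⟩ := res_eq N hθ hinv hψ' h'
  obtain ⟨Λ, hΛ, -, h1, h2⟩ := exists_linear_dual N hab
  have hs : ∑ l ∈ Λ, classInner ((fun g => (l g : ℂ)) * ψ) ψ' ≠ 0 := by
    have e1 : ∑ l ∈ Λ, classInner ((fun g => (l g : ℂ)) * ψ) ψ' =
        (Nat.card G : ℂ)⁻¹ * ∑ g : G, (∑ l ∈ Λ, (l g : ℂ)) * (ψ g * conj (ψ' g)) := by
      simp only [Finset.sum_mul]
      rw [Finset.sum_comm, Finset.mul_sum]
      refine Finset.sum_congr rfl fun l _ => ?_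
      show (Nat.card G : ℂ)⁻¹ * ∑ g : G, ((l g : ℂ) * ψ g) * conj (ψ' g) = _
      congr 1
      exact Finset.sum_congr rfl fun g _ => by ring
    have e2 : ∑ g : G, (∑ l ∈ Λ, (l g : ℂ)) * (ψ g * conj (ψ' g)) =
        (N.index : ℂ) * ((e : ℂ) * e' * ((Nat.card N : ℂ) * classInner θ θ)) := by
      rw [sum_sub N _ (fun g hg => by rw [h2 g hg, zero_mul])]
      have e3 : (Nat.card N : ℂ) * classInner θ θ = ∑ n : N, θ n * conj (θ n) := by
        show (Nat.card N : ℂ) * ((Nat.card N : ℂ)⁻¹ * ∑ n : N, θ n * conj (θ n)) = _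
        rw [← mul_assoc, mul_inv_cancel₀ (Nat.cast_ne_zero.2 Nat.card_pos.ne'), one_mul]
      rw [e3, Finset.mul_sum, Finset.mul_sum]
      refine Finset.sum_congr rfl fun n _ => ?_
      rw [h1 n n.2, he n, he' n, map_mul, map_natCast]
      ring
    rw [e1, e2, classInner_irr_self hθ]
    have hN0 : (Nat.card N : ℂ) ≠ 0 := Nat.cast_ne_zero.2 Nat.card_pos.ne'
    have hI0 : (N.index : ℂ) ≠ 0 := Nat.cast_ne_zero.2 Subgroup.index_ne_zero_of_finite
    have hG0 : (Nat.card G : ℂ) ≠ 0 := Nat.cast_ne_zero.2 Nat.card_pos.ne'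
    have he1 : (e : ℂ) ≠ 0 := Nat.cast_ne_zero.2 he0.ne'
    have he2 : (e' : ℂ) ≠ 0 := Nat.cast_ne_zero.2 he0'.ne'
    exact mul_ne_zero (inv_ne_zero hG0) (mul_ne_zero hI0 (mul_ne_zero (mul_ne_zero he1 he2)
      (mul_ne_zero hN0 one_ne_zero)))
  obtain ⟨l, hl, hne⟩ := Finset.exists_ne_zero_of_sum_ne_zero hs
  refine ⟨l, (hΛ l).1 hl, ?_⟩
  by_contra hcon
  exact hne (classInner_irr_ne (isIrr_linear_mul l hψ) hψ' (fun h => hcon h.symm))

end one

section two

variable {H : Type u} [Group H] [Finite H] {L₀ L : Subgroup H} [h₀ : L₀.Normal] [hL : L.Normal] (h01 : L₀ ≤ L)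

/-- the character of `L₀` seen on `L₀.subgroupOf L` -/
def dn (ψ₀ : L₀ → ℂ) : L₀.subgroupOf L → ℂ := ψ₀ ∘ (Subgroup.subgroupOfEquivOfLe h01)

theorem dn_irr {ψ₀ : L₀ → ℂ} (h : IsIrrCharacter L₀ ψ₀) : IsIrrCharacter (L₀.subgroupOf L) (dn h01 ψ₀) :=
  isIrr_comp (Subgroup.subgroupOfEquivOfLe h01).toMonoidHom (Subgroup.subgroupOfEquivOfLe h01).surjective h

theorem dn_over {ψ₀ : L₀ → ℂ} {ψ : L → ℂ} :
    Over (L₀.subgroupOf L).subtype ψ (dn h01 ψ₀) ↔ Over (Subgroup.inclusion h01) ψ ψ₀ := by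
  have e : (L₀.subgroupOf L).subtype = (Subgroup.inclusion h01).comp (Subgroup.subgroupOfEquivOfLe h01).toMonoidHom := rfl
  rw [e]
  exact over_comp_equiv _ _ _ _

theorem dn_inv {ψ₀ : L₀ → ℂ} (hinv : inertia L₀ ψ₀ = ⊤) : inertia (L₀.subgroupOf L) (dn h01 ψ₀) = ⊤ := by
  rw [eq_top_iff]
  intro x _
  rw [mem_inertia_iff]
  intro n
  have hx : (x : H) ∈ inertia L₀ ψ₀ := by rw [hinv]; trivial
  rw [mem_inertia_iff] at hx
  exact hx ⟨((n : L) : H), n.2⟩

/-- Conjugates of characters over `ψ₀` are characters over `ψ₀`. -/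
theorem over_conj {ψ₀ : L₀ → ℂ} (hinv : inertia L₀ ψ₀ = ⊤) {ψ : L → ℂ} (h : Over (Subgroup.inclusion h01) ψ ψ₀) (x : H) :
    Over (Subgroup.inclusion h01) (ψ ∘ (MulAut.conjNormal x : MulAut L)) ψ₀ := by
  classical
  letI := Fintype.ofFinite L₀
  rw [over_iff] at h ⊢
  intro h1
  apply h
  rw [← h1]
  have hx : x ∈ inertia L₀ ψ₀ := by rw [hinv]; trivial
  rw [mem_inertia] at hx
  have h2 := classInner_comp_mulEquiv (MulAut.conjNormal x : MulAut L₀) (ψ ∘ (Subgroup.inclusion h01)) ψ₀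
  rw [hx] at h2
  rw [← h2]
  rfl

/-- Conjugates are twists. -/
theorem conj_eq_twist (hab : ∀ a ∈ L, ∀ b ∈ L, ⁅a, b⁆ ∈ L₀) {ψ₀ : L₀ → ℂ} (hψ₀ : IsIrrCharacter L₀ ψ₀)
    (hinv : inertia L₀ ψ₀ = ⊤) {ψ ψ' : L → ℂ} (hψ : IsIrrCharacter L ψ) (hψ' : IsIrrCharacter L ψ')
    (h : Over (Subgroup.inclusion h01) ψ ψ₀) (h' : Over (Subgroup.inclusion h01) ψ' ψ₀) :
    ∃ l : L →* ℂˣ, (∀ a : L, (a : H) ∈ L₀ → l a = 1) ∧ ψ' = (fun g => (l g : ℂ)) * ψ := by
  obtain ⟨l, h1, h2⟩ := exists_twist (L₀.subgroupOf L) (fun x y => by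
    rw [Subgroup.mem_subgroupOf]
    exact hab x x.2 y y.2) (dn_irr h01 hψ₀) (dn_inv h01 hinv) hψ hψ' ((dn_over h01).2 h) ((dn_over h01).2 h')
  exact ⟨l, fun a ha => h1 a (Subgroup.mem_subgroupOf.2 ha), h2⟩

/-- **(a1)** Characters over an invariant character of a central section of a perfect group are invariant. -/
theorem inv_of_central (hperf : commutator H = ⊤) (hc : ∀ a ∈ L, ∀ h : H, ⁅a, h⁆ ∈ L₀) {ψ₀ : L₀ → ℂ}
    (hψ₀ : IsIrrCharacter L₀ ψ₀) (hinv : inertia L₀ ψ₀ = ⊤) {ψ : L → ℂ} (hψ : IsIrrCharacter L ψ)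
    (h : Over (Subgroup.inclusion h01) ψ ψ₀) : inertia L ψ = ⊤ := by
  have key : ∀ x : H, ∃ l : L →* ℂˣ, (∀ a : L, (a : H) ∈ L₀ → l a = 1) ∧
      ψ ∘ (MulAut.conjNormal x : MulAut L) = (fun g => (l g : ℂ)) * ψ := fun x =>
    conj_eq_twist h01 (fun a ha b _ => hc a ha b) hψ₀ hinv hψ (isIrr_comp (MulAut.conjNormal x : MulAut L).toMonoidHom
      (MulAut.conjNormal x : MulAut L).surjective hψ) h (over_conj h01 hinv h x)
  choose l hl1 hl2 using key
  have hfix : ∀ x y : H, ∀ a : L, l x ((MulAut.conjNormal y : MulAut L) a) = l x a := by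
    intro x y a
    have h1 : ((MulAut.conjNormal y : MulAut L) a) = (((MulAut.conjNormal y : MulAut L) a) * a⁻¹) * a := by group
    rw [h1, map_mul, hl1, one_mul]
    have h2 := hc a⁻¹ (L.inv_mem a.2) y
    have h3 : ((((MulAut.conjNormal y : MulAut L) a) * a⁻¹ : L) : H) = (a : H) * ⁅(a : H)⁻¹, y⁆ * (a : H)⁻¹ := by
      rw [Subgroup.coe_mul, MulAut.conjNormal_apply, Subgroup.coe_inv, commutatorElement_def]
      group
    rw [h3]
    exact h₀.conj_mem _ h2 _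
  have hmul : ∀ x y : H, ψ ∘ (MulAut.conjNormal (x * y) : MulAut L) =
      (fun g => (l x g : ℂ)) * ((fun g => (l y g : ℂ)) * ψ) := by
    intro x y
    rw [comp_conjNormal_mul, hl2 x]
    funext a
    simp only [Function.comp, Pi.mul_apply]
    rw [hfix]
    congr 1
    exact congrFun (hl2 y) a
  have hcomm : commutator H ≤ inertia L ψ := by
    rw [commutator_def, Subgroup.commutator_le]
    intro x _ y _
    have h1 : ψ ∘ (MulAut.conjNormal (x * y) : MulAut L) = ψ ∘ (MulAut.conjNormal (y * x) : MulAut L) := by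
      rw [hmul, hmul]
      funext a
      simp only [Pi.mul_apply]
      ring
    rw [mem_inertia]
    have h2 := (comp_conjNormal_eq_iff L ψ (y * x) (x * y)).1 h1
    have h3 : x * y * (y * x)⁻¹ = ⁅x, y⁆ := by rw [commutatorElement_def]; group
    rwa [h3] at h2
  rw [eq_top_iff, ← hperf]
  exact hcomm

/-- A unique character over an invariant character is invariant. -/
theorem inv_of_unique {ψ₀ : L₀ → ℂ} (hinv : inertia L₀ ψ₀ = ⊤) {ψ : L → ℂ} (hψ : IsIrrCharacter L ψ)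
    (h : Over (Subgroup.inclusion h01) ψ ψ₀)
    (huniq : ∀ ψ' : L → ℂ, IsIrrCharacter L ψ' → Over (Subgroup.inclusion h01) ψ' ψ₀ → ψ' = ψ) : inertia L ψ = ⊤ := by
  rw [eq_top_iff]
  intro x _
  rw [mem_inertia]
  exact huniq _ (isIrr_comp (MulAut.conjNormal x : MulAut L).toMonoidHom
    (MulAut.conjNormal x : MulAut L).surjective hψ) (over_conj h01 hinv h x)

/-- Restriction to `L₀`. -/
theorem res_eq' {ψ₀ : L₀ → ℂ} (hψ₀ : IsIrrCharacter L₀ ψ₀) (hinv : inertia L₀ ψ₀ = ⊤) {ψ : L → ℂ}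
    (hψ : IsIrrCharacter L ψ) (h : Over (Subgroup.inclusion h01) ψ ψ₀) :
    ∃ e : ℕ, 0 < e ∧ ∀ n : L₀, ψ (Subgroup.inclusion h01 n) = e * ψ₀ n := by
  obtain ⟨e, he, h1⟩ := res_eq (L₀.subgroupOf L) (dn_irr h01 hψ₀) (dn_inv h01 hinv) hψ ((dn_over h01).2 h)
  exact ⟨e, he, fun n => h1 ⟨Subgroup.inclusion h01 n, n.2⟩⟩

/-- **(a2)/(iii)** An abelian chief factor: fully ramified (unique character, zero off `L₀`) or all characters over `ψ₀`
are extensions of `ψ₀`. -/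
theorem chief_cases (hab : ∀ a ∈ L, ∀ b ∈ L, ⁅a, b⁆ ∈ L₀)
    (hmin : ∀ M : Subgroup H, M.Normal → L₀ ≤ M → M ≤ L → M = L₀ ∨ M = L) {ψ₀ : L₀ → ℂ}
    (hψ₀ : IsIrrCharacter L₀ ψ₀) (hinv : inertia L₀ ψ₀ = ⊤) {ψ : L → ℂ} (hψ : IsIrrCharacter L ψ)
    (h : Over (Subgroup.inclusion h01) ψ ψ₀) :
    ((∀ ψ' : L → ℂ, IsIrrCharacter L ψ' → Over (Subgroup.inclusion h01) ψ' ψ₀ → ψ' = ψ) ∧
      (∀ a : L, (a : H) ∉ L₀ → ψ a = 0) ∧
      ∃ e : ℕ, e ^ 2 = L₀.relIndex L ∧ ∀ n : L₀, ψ (Subgroup.inclusion h01 n) = e * ψ₀ n) ∨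
    (∀ ψ' : L → ℂ, IsIrrCharacter L ψ' → Over (Subgroup.inclusion h01) ψ' ψ₀ →
      ∀ n : L₀, ψ' (Subgroup.inclusion h01 n) = ψ₀ n) := by
  classical
  letI := Fintype.ofFinite L
  letI := Fintype.ofFinite (L₀.subgroupOf L)
  -- the stabilizer of `ψ` in the dual of `L / L₀`
  let B : (L →* ℂˣ) → Prop := fun l => (∀ a : L, (a : H) ∈ L₀ → l a = 1) ∧ (fun g => (l g : ℂ)) * ψ = ψ
  have hval : ∀ l, B l → ∀ a : L, ψ a ≠ 0 → l a = 1 := by
    intro l hl a ha
    have h1 := congrFun hl.2 a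
    simp only [Pi.mul_apply] at h1
    ext
    rw [Units.val_one]
    exact mul_right_cancel₀ ha (h1.trans (one_mul _).symm)
  -- twisting by a conjugate
  have hBc : ∀ l, B l → ∀ x : H, B (l.comp (MulAut.conjNormal x : MulAut L).toMonoidHom) := by
    intro l hl x
    refine ⟨fun a ha => hl.1 _ (h₀.conj_mem _ ha x), ?_⟩
    obtain ⟨m, -, hm⟩ := conj_eq_twist h01 hab hψ₀ hinv hψ (isIrr_comp (MulAut.conjNormal x : MulAut L).toMonoidHom
      (MulAut.conjNormal x : MulAut L).surjective hψ) h (over_conj h01 hinv h x)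
    funext a
    have h1 := congrFun hl.2 ((MulAut.conjNormal x : MulAut L) a)
    have h2 := congrFun hm a
    change ψ ((MulAut.conjNormal x : MulAut L) a) = (m a : ℂ) * ψ a at h2
    simp only [Pi.mul_apply] at h1 ⊢
    rw [h2] at h1
    change (l ((MulAut.conjNormal x : MulAut L) a) : ℂ) * ψ a = ψ a
    have h3 : (m a : ℂ) ≠ 0 := (m a).ne_zero
    have h4 : (m a : ℂ) * ((l ((MulAut.conjNormal x : MulAut L) a) : ℂ) * ψ a) = (m a : ℂ) * ψ a := by
      rw [← h1]; ring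
    exact mul_left_cancel₀ h3 h4
  let M : Subgroup H :=
    { carrier := {x | ∃ hx : x ∈ L, ∀ l, B l → l ⟨x, hx⟩ = 1}
      one_mem' := ⟨L.one_mem, fun l _ => map_one l⟩
      mul_mem' := by
        rintro a b ⟨ha, ha'⟩ ⟨hb, hb'⟩
        refine ⟨L.mul_mem ha hb, fun l hl => ?_⟩
        have : (⟨a * b, L.mul_mem ha hb⟩ : L) = ⟨a, ha⟩ * ⟨b, hb⟩ := rfl
        rw [this, map_mul, ha' l hl, hb' l hl, one_mul]
      inv_mem' := by
        rintro a ⟨ha, ha'⟩
        refine ⟨L.inv_mem ha, fun l hl => ?_⟩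
        have : (⟨a⁻¹, L.inv_mem ha⟩ : L) = ⟨a, ha⟩⁻¹ := rfl
        rw [this, map_inv, ha' l hl, inv_one] }
  have hMn : M.Normal := by
    refine ⟨fun a ha x => ?_⟩
    obtain ⟨ha, ha'⟩ := ha
    exact ⟨hL.conj_mem a ha x, fun l hl => ha' _ (hBc l hl x)⟩
  have hM0 : L₀ ≤ M := fun a ha => ⟨h01 ha, fun l hl => hl.1 _ ha⟩
  have hM1 : M ≤ L := fun a ha => ha.1
  obtain ⟨e, he0, he⟩ := res_eq' h01 hψ₀ hinv hψ h
  -- the norm of the restriction
  obtain ⟨Λ, hΛ, -, h1, h2⟩ := exists_linear_dual (L₀.subgroupOf L) (fun x y => by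
    rw [Subgroup.mem_subgroupOf]
    exact hab x x.2 y y.2)
  have hnorm : classInner (fun n : L₀.subgroupOf L => ψ n) (fun n : L₀.subgroupOf L => ψ n) = (e : ℂ) ^ 2 := by
    have h3 : (fun n : L₀.subgroupOf L => ψ n) = (e : ℂ) • dn h01 ψ₀ := by
      funext n
      exact he ⟨((n : L) : H), n.2⟩
    rw [h3, classInner_smul_left, classInner_smul_right, classInner_irr_self (dn_irr h01 hψ₀), map_natCast]
    ring
  rcases hmin M hMn hM0 hM1 with hM | hM
  · -- fully ramified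
    left
    have hoff : ∀ a : L, (a : H) ∉ L₀ → ψ a = 0 := by
      intro a ha
      by_contra hne
      apply ha
      rw [← hM]
      exact ⟨a.2, fun l hl => hval l hl a hne⟩
    refine ⟨?_, hoff, e, ?_, he⟩
    · intro ψ' hψ' hov'
      obtain ⟨l, hl1, hl2⟩ := conj_eq_twist h01 hab hψ₀ hinv hψ hψ' h hov'
      rw [hl2]
      funext a
      simp only [Pi.mul_apply]
      by_cases ha : (a : H) ∈ L₀
      · rw [hl1 a ha, Units.val_one, one_mul]
      · rw [hoff a ha, mul_zero]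
    · have h3 := classInner_restrict_self_of_vanish (L₀.subgroupOf L) hψ (fun g hg => hoff g hg)
      rw [hnorm] at h3
      exact_mod_cast h3
  · right
    have hB1 : ∀ l, B l → l = 1 := by
      intro l hl
      ext a
      have ha : (a : H) ∈ M := by rw [hM]; exact a.2
      obtain ⟨ha, ha'⟩ := ha
      have := ha' l hl
      rw [MonoidHom.one_apply, Units.val_one]
      have h3 : l a = 1 := this
      rw [h3, Units.val_one]
    have h3 := classInner_restrict_self (L₀.subgroupOf L) hψ Λ h1 h2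
    have h4 : Λ.filter (fun l => (fun g => (l g : ℂ)) * ψ = ψ) = {1} := by
      ext l
      rw [Finset.mem_filter, Finset.mem_singleton, hΛ]
      constructor
      · rintro ⟨ha, hb⟩
        exact hB1 l ⟨fun a ha' => ha a (Subgroup.mem_subgroupOf.2 ha'), hb⟩
      · rintro rfl
        refine ⟨fun _ _ => rfl, ?_⟩
        funext a
        simp
    rw [hnorm, h4, Finset.card_singleton, Nat.cast_one] at h3
    have h5 : e = 1 := by
      have h6 : e ^ 2 = 1 := by exact_mod_cast h3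
      exact (pow_eq_one_iff.1 h6).resolve_right two_ne_zero
    subst h5
    intro ψ' hψ' hov' n
    obtain ⟨l, hl1, hl2⟩ := conj_eq_twist h01 hab hψ₀ hinv hψ hψ' h hov'
    rw [hl2]
    simp only [Pi.mul_apply]
    rw [hl1 _ n.2, Units.val_one, one_mul, he, Nat.cast_one, one_mul]

/-- **Layer (a)**: an abelian chief factor `L / L₀` of the perfect group `H`, `ψ₀` an `H`-invariant character of `L₀`:
all characters of `L` over `ψ₀` are `H`-invariant, or `L / L₀` is not central in `H / L₀` and `ψ₀` extends to `L`. -/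
theorem layer_a (hperf : commutator H = ⊤) (hab : ∀ a ∈ L, ∀ b ∈ L, ⁅a, b⁆ ∈ L₀)
    (hmin : ∀ M : Subgroup H, M.Normal → L₀ ≤ M → M ≤ L → M = L₀ ∨ M = L) {ψ₀ : L₀ → ℂ}
    (hψ₀ : IsIrrCharacter L₀ ψ₀) (hinv : inertia L₀ ψ₀ = ⊤) :
    (∀ ψ : L → ℂ, IsIrrCharacter L ψ → Over (Subgroup.inclusion h01) ψ ψ₀ → inertia L ψ = ⊤) ∨
    ((¬ ∀ a ∈ L, ∀ h : H, ⁅a, h⁆ ∈ L₀) ∧ ∀ ψ : L → ℂ, IsIrrCharacter L ψ → Over (Subgroup.inclusion h01) ψ ψ₀ →
      ∀ n : L₀, ψ (Subgroup.inclusion h01 n) = ψ₀ n) := by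
  by_cases hc : ∀ a ∈ L, ∀ h : H, ⁅a, h⁆ ∈ L₀
  · exact Or.inl fun ψ hψ h => inv_of_central h01 hperf hc hψ₀ hinv hψ h
  by_cases hex : ∃ ψ : L → ℂ, IsIrrCharacter L ψ ∧ Over (Subgroup.inclusion h01) ψ ψ₀
  · obtain ⟨ψ, hψ, h⟩ := hex
    rcases chief_cases h01 hab hmin hψ₀ hinv hψ h with ⟨hu, -, -⟩ | h1
    · left
      intro ψ' hψ' h'
      rw [hu ψ' hψ' h']
      exact inv_of_unique h01 hinv hψ h hu
    · exact Or.inr ⟨hc, h1⟩
  · exact Or.inl fun ψ hψ h => absurd ⟨ψ, hψ, h⟩ hex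

end two

end Cfsg.Agent.H322.RIM
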